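import Mathlib
import Cfsg.Prelude.Def_Classical
import Cfsg.Agent.Prune
set_option linter.all false
prune_inst 0x7f00000000000000000000000000000000000000000000000000000000000000000000000000000000000000000000000000000000000000000000000000000000000000000000000000000000000000003fffffffffffffffffffffffffffbeffbdffffffff
open scoped Cfsg.Agent.FastGrp

/-!
`PSU₄(2)` has an element of order nine.
-/

set_option autoImplicit false

namespace Cfsg.Agent.H497.UFourTwo

open Subgroup Matrix Cfsg

variable {F : Type*} [Field F]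

/-- the monomial matrix -/
def mM (w : F) : Matrix (Fin 4) (Fin 4) F := !![0, 0, w, 0; 1, 0, 0, 0; 0, 1, 0, 0; 0, 0, 0, w ^ 2]

/-- a permutation matrix -/
def mP : Matrix (Fin 4) (Fin 4) F := !![0, 0, 0, 1; 0, 0, 1, 0; 0, 1, 0, 0; 1, 0, 0, 0]

theorem det_mM {w : F} (hw : w ^ 3 = 1) : (mM w).det = 1 := by
  simp only [mM, Matrix.det_succ_row_zero, Fin.sum_univ_succ, Fin.succAbove, _root_.Nat.succ_eq_add_one, _root_.Nat.reduceAdd, _root_.Fin.isValue, _root_.Matrix.of_apply, _root_.Matrix.cons_val', _root_.Matrix.cons_val_fin_one, _root_.Matrix.cons_val_zero, _root_.Matrix.submatrix_apply, _root_.Fin.succ_zero_eq_one, _root_.Matrix.cons_val_one, _root_.Matrix.submatrix_submatrix, _root_.Function.comp_apply, _root_.Fin.succ_one_eq_two, _root_.Matrix.cons_val, _root_.Matrix.det_unique, _root_.Fin.default_eq_zero, _root_.Fin.reduceSucc, _root_.Fin.castSucc_zero, _root_.Fin.coe_ofNat_eq_mod, _root_.Nat.zero_mod, _root_.pow_zero, _root_.one_mul, _root_.lt_self_iff_false, ↓ _root_.reduceIte,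 _root_.Fin.castSucc_one, _root_.Finset.univ_unique, _root_.Fin.val_succ, _root_.Fin.val_eq_zero, _root_.zero_add, _root_.pow_one, _root_.Fin.castSucc_succ, _root_.neg_mul, _root_.Fin.succ_pos, _root_.Finset.sum_neg_distrib, _root_.Finset.sum_singleton, _root_.not_lt_zero, _root_.Fin.reduceCastSucc, _root_.even_two, _root_.Even.neg_pow, _root_.one_pow, _root_.Fin.reduceLT, _root_.MulZeroClass.mul_zero, _root_.MulZeroClass.zero_mul, _root_.neg_zero, _root_.add_zero, _root_.Matrix.cons_val_succ, _root_.Fin.lt_one_iff, _root_.Fin.reduceEq, _root_.Finset.sum_const_zero]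
  linear_combination hw

theorem det_mP : (mP : Matrix (Fin 4) (Fin 4) F).det = 1 := by
  simp only [mP, Matrix.det_succ_row_zero, Fin.sum_univ_succ, Fin.succAbove, _root_.Nat.succ_eq_add_one, _root_.Nat.reduceAdd, _root_.Fin.isValue, _root_.Matrix.of_apply, _root_.Matrix.cons_val', _root_.Matrix.cons_val_fin_one, _root_.Matrix.cons_val_zero, _root_.Matrix.submatrix_apply, _root_.Fin.succ_zero_eq_one, _root_.Matrix.cons_val_one, _root_.Matrix.submatrix_submatrix, _root_.Function.comp_apply, _root_.Fin.succ_one_eq_two, _root_.Matrix.cons_val, _root_.Matrix.det_unique, _root_.Fin.default_eq_zero, _root_.Fin.reduceSucc, _root_.Fin.castSucc_zero, _root_.Fin.coe_ofNat_eq_mod, _root_.Nat.zero_mod, _root_.pow_zero, _root_.one_mul, _root_.lt_self_iff_false, ↓ _root_.reduceIte, _root_.Fin.castSucc_one, _root_.Finset.univ_unique, _root_.Fin.val_succ, _root_.Fin.val_eq_zero, _root_.zero_add, _root_.pow_one, _root_.Fin.castSucc_succ, _root_.neg_mul, _root_.Fin.succ_pos, _root_.Finset.sum_neg_distrib,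 _root_.Finset.sum_singleton, _root_.not_lt_zero, _root_.Fin.reduceCastSucc, _root_.even_two, _root_.Even.neg_pow, _root_.one_pow, _root_.Fin.reduceLT, _root_.MulZeroClass.mul_zero, _root_.neg_zero, _root_.add_zero, _root_.Matrix.cons_val_succ, _root_.MulZeroClass.zero_mul, _root_.mul_one, _root_.mul_neg, _root_.neg_neg, _root_.Fin.lt_one_iff, _root_.Fin.reduceEq]
  ring

/-- as elements of `SL₄` -/
def sM {w : F} (hw : w ^ 3 = 1) : Matrix.SpecialLinearGroup (Fin 4) F := ⟨mM w, det_mM hw⟩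

def sP : Matrix.SpecialLinearGroup (Fin 4) F := ⟨mP, det_mP⟩

theorem sM_mem {w : F} (hw : w ^ 3 = 1) : sM hw ∈ SU 4 F 2 := by
  intro u v
  have h1 : (slToMat 4 F (sM hw)) = mM w := rfl
  rw [h1]
  simp only [hermForm, mM, Fin.sum_univ_four, Matrix.mulVec, dotProduct, _root_.Matrix.of_apply, _root_.Matrix.cons_val', _root_.Matrix.cons_val_fin_one, _root_.Fin.isValue, _root_.Matrix.cons_val_zero, _root_.Matrix.cons_val_one, _root_.Matrix.cons_val, _root_.MulZeroClass.zero_mul, _root_.add_zero, _root_.zero_add, _root_.one_mul]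
  linear_combination (u 2 * v 2 ^ 2 + u 3 * v 3 ^ 2 * (w ^ 3 + 1)) * hw

theorem sP_mem : (sP : Matrix.SpecialLinearGroup (Fin 4) F) ∈ SU 4 F 2 := by
  intro u v
  have h1 : (slToMat 4 F sP) = mP := rfl
  rw [h1]
  simp only [hermForm, mP, Fin.sum_univ_four, Matrix.mulVec, dotProduct, _root_.Matrix.of_apply, _root_.Matrix.cons_val', _root_.Matrix.cons_val_fin_one, _root_.Fin.isValue, _root_.Matrix.cons_val_zero, _root_.Matrix.cons_val_one, _root_.Matrix.cons_val, _root_.MulZeroClass.zero_mul, _root_.add_zero, _root_.one_mul, _root_.zero_add]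
  ring

theorem exists_order_nine [Fintype F] (hF : Fintype.card F = 4) : ∃ x : PSU 4 F 2, orderOf x = 9 := by
  classical
  -- a primitive cube root of unity
  obtain ⟨w, hw3, hw1⟩ : ∃ w : F, w ^ 3 = 1 ∧ w ≠ 1 := by
    have hc : Fintype.card Fˣ = 3 := by rw [Fintype.card_units, hF]
    have f3 : Fact (Nat.Prime 3) := ⟨by norm_num⟩
    obtain ⟨g, hg⟩ := exists_prime_orderOf_dvd_card (G := Fˣ) 3 (by rw [hc])
    refine ⟨g, ?_, ?_⟩
    · have h1 : g ^ 3 = 1 := by rw [← hg, pow_orderOf_eq_one]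
      have := congrArg Units.val h1
      simpa only [_root_.Units.val_pow_eq_pow_val, _root_.Units.val_one] using this
    · intro h0
      have h1 : g = 1 := Units.ext h0
      rw [h1, orderOf_one] at hg
      norm_num at hg
  set M : SU 4 F 2 := ⟨sM hw3, sM_mem hw3⟩ with hM
  set P : SU 4 F 2 := ⟨sP, sP_mem⟩ with hP
  have hM3 : ((M ^ 3 : SU 4 F 2) : Matrix.SpecialLinearGroup (Fin 4) F).1 =
      !![w, 0, 0, 0; 0, w, 0, 0; 0, 0, w, 0; 0, 0, 0, 1] := by
    have h1 : ((M ^ 3 : SU 4 F 2) : Matrix.SpecialLinearGroup (Fin 4) F).1 = (mM w) ^ 3 := rfl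
    rw [h1, pow_succ, pow_two]
    ext i j
    (revert i j; simp only [mM, Matrix.mul_apply, Fin.sum_univ_four, _root_.Fin.forall_fin_succ, _root_.Matrix.cons_mul, _root_.Nat.succ_eq_add_one, Nat.reduceAdd, _root_.Matrix.vecMul_cons, _root_.Matrix.head_cons, _root_.zero_smul, _root_.Matrix.tail_cons, _root_.Matrix.smul_cons, _root_.smul_eq_mul, _root_.MulZeroClass.mul_zero, _root_.mul_one, _root_.Matrix.smul_empty, _root_.Matrix.empty_vecMul, _root_.add_zero, _root_.zero_add, _root_.one_smul, _root_.Matrix.empty_mul, _root_.Equiv.symm_apply_apply, _root_.Matrix.of_apply, _root_.Matrix.cons_val', _root_.Matrix.cons_val_fin_one, Fin.isValue, _root_.Matrix.cons_val_zero, _root_.Matrix.cons_val_one, _root_.Matrix.cons_val, _root_.Matrix.cons_val_succ, _root_.forall_const, _root_.MulZeroClass.zero_mul, _root_.one_mul, _root_.and_true, _root_.true_and]) <;> (repeat' with_reducible apply And.intro)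
    · calc w ^ 2 * w ^ 2 * w ^ 2 = w ^ 3 * w ^ 3 := by ring
        _ = 1 := by rw [hw3, one_mul]
  have hM9 : M ^ 9 = 1 := by
    have h1 : M ^ 9 = (M ^ 3) ^ 3 := by rw [← pow_mul]
    rw [h1]
    apply Subtype.ext
    apply Subtype.ext
    have h2 : (((M ^ 3) ^ 3 : SU 4 F 2) : Matrix.SpecialLinearGroup (Fin 4) F).1 =
      (((M ^ 3 : SU 4 F 2) : Matrix.SpecialLinearGroup (Fin 4) F).1) ^ 3 := rfl
    have h3 : ((1 : SU 4 F 2) : Matrix.SpecialLinearGroup (Fin 4) F).1 = 1 := rfl
    change (((M ^ 3) ^ 3 : SU 4 F 2) : Matrix.SpecialLinearGroup (Fin 4) F).1 =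
      ((1 : SU 4 F 2) : Matrix.SpecialLinearGroup (Fin 4) F).1
    rw [h2, h3, hM3, pow_succ, pow_two]
    have hwww : w * w * w = 1 := by rw [← hw3]; ring
    ext i j
    (revert i j; simp only [Matrix.mul_apply, Fin.sum_univ_four, hwww, _root_.Fin.forall_fin_succ, _root_.Matrix.cons_mul, _root_.Nat.succ_eq_add_one, Nat.reduceAdd, _root_.Matrix.vecMul_cons, _root_.Matrix.head_cons, _root_.Matrix.smul_cons, _root_.smul_eq_mul, _root_.MulZeroClass.mul_zero, _root_.Matrix.smul_empty, _root_.Matrix.tail_cons, _root_.zero_smul, _root_.Matrix.empty_vecMul, _root_.add_zero, _root_.zero_add, _root_.one_smul, _root_.Matrix.empty_mul, _root_.Equiv.symm_apply_apply, _root_.Matrix.of_apply, _root_.Matrix.cons_val', _root_.Matrix.cons_val_fin_one, Fin.isValue, _root_.Matrix.cons_val_zero, _root_.Matrix.cons_val_one, _root_.Matrix.cons_val, _root_.Matrix.cons_val_succ, _root_.mul_one, _root_.IsEmpty.forall_iff, _root_.and_true, _root_.Matrix.one_apply_eq, _root_.MulZeroClass.zero_mul,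 _root_.Fin.succ_zero_eq_one, _root_.ne_eq, _root_.zero_ne_one, _root_.not_false_eq_true, _root_.Matrix.one_apply_ne, _root_.Fin.succ_one_eq_two, Fin.reduceEq, Fin.reduceSucc, _root_.and_self, _root_.Fin.succ_ne_zero, _root_.mul_eq_zero, _root_.true_or, _root_.true_and])
  have hnc : M ^ 3 ∉ center (SU 4 F 2) := by
    intro hc
    rw [mem_center_iff] at hc
    have h1 := hc P
    have h2 := congrArg (fun x : SU 4 F 2 => (x : Matrix.SpecialLinearGroup (Fin 4) F).1 0 3) h1
    have h3 : ((P * M ^ 3 : SU 4 F 2) : Matrix.SpecialLinearGroup (Fin 4) F).1 =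
      mP * ((M ^ 3 : SU 4 F 2) : Matrix.SpecialLinearGroup (Fin 4) F).1 := rfl
    have h4 : ((M ^ 3 * P : SU 4 F 2) : Matrix.SpecialLinearGroup (Fin 4) F).1 =
      ((M ^ 3 : SU 4 F 2) : Matrix.SpecialLinearGroup (Fin 4) F).1 * mP := rfl
    simp only [h3, h4, hM3] at h2
    simp [mP, Matrix.mul_apply, Fin.sum_univ_four] at h2
    exact hw1 h2.symm
  refine ⟨QuotientGroup.mk' _ M, ?_⟩
  have f3 : Fact (Nat.Prime 3) := ⟨by norm_num⟩
  have h1 : orderOf (QuotientGroup.mk' (center (SU 4 F 2)) M) = 3 ^ (1 + 1) := by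
    apply orderOf_eq_prime_pow
    · rw [← map_pow]
      intro h0
      exact hnc ((QuotientGroup.eq_one_iff _).mp h0)
    · rw [← map_pow, show 3 ^ (1 + 1) = 9 by norm_num, hM9, map_one]
  rw [h1]
  norm_num

end Cfsg.Agent.H497.UFourTwo

private theorem dce_30271cc6eda6 : _root_.True := by
  try have : _root_.True := by simp only [_root_.Cfsg.hermForm.eq_1]
  try have : _root_.True := by simp only [_root_.Cfsg.Agent.H497.UFourTwo.mM.eq_1]
  try have : _root_.True := by simp only [_root_.Cfsg.Agent.H497.UFourTwo.mP.eq_1]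
  exact _root_.True.intro
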